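import Cfsg.Agent.H692.Rg.Alt
import Cfsg.Agent.H559.Rg.CyclePow
import Cfsg.Agent.H451.Rg.TransPrim

/-!
# S5714, task 4634: almost all pairs generate the alternating groups
-/

set_option autoImplicit false

namespace Cfsg.Agent.H692.Rg

open Cfsg Cfsg.Agent.OrdDiv Cfsg.Agent.H436 Cfsg.Agent.H141.Rg

/-- **Almost all pairs generate the alternating groups** (S5714, A4). -/
theorem alt_gen : FamGen (fun g => ∃ n, g = .alt n) :=
  alt_gen_of H559.Rg.cycle_pow H451.Rg.not_trans H451.Rg.not_prim

end Cfsg.Agent.H692.Rg
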